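import Mathlib
import Cfsg.Agent.TECH.GC.Map

/-!
An element normalizing a minimal block which acts like a transvection on the natural module.
-/

set_option autoImplicit false
set_option linter.unusedSectionVars false
open Cfsg Subgroup CL.Th CL.MSS CL.Push CL.BHS CL.Dickson CL.Quad
open scoped commutatorElement MatrixGroups

namespace CL.GC.MB

variable {G : Type*} [Group G] [Finite G] {F : Type*} [Field F] [Finite F] [CharP F 2]
  {B E W : Subgroup G} {ρ : G → SL(2, F)} {ψ : G → Fin 2 → F} (m : MB B E W ρ ψ)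
include m

theorem ψ_eq {a b : G} (ha : a ∈ W) (hb : b ∈ W) : ψ a = ψ b ↔ a⁻¹ * b ∈ centralizer (E : Set G) := by
  rw [← m.ker _ (mul_mem (inv_mem ha) hb), m.add _ (inv_mem ha) _ hb, add_inv m.add ha,
    neg_add_eq_zero]

theorem ψ_conj {t a b : G} (ht : t ∈ normalizer (E : Set G)) (ha : a ∈ W) (hb : b ∈ W)
    (e : ψ a = ψ b) : ψ (t * a * t⁻¹) = ψ (t * b * t⁻¹) := by
  have c : ∀ {a}, a ∈ W → t * a * t⁻¹ ∈ W := fun ha => (mem_normalizer_iff.1 (m.norm_W ht) _).1 ha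
  rw [m.ψ_eq (c ha) (c hb), conj_inv, conj_mul]
  exact conj_mem_of_normalizes (MSS.le_normalizer_centralizer le_rfl) ht ((m.ψ_eq ha hb).1 e)

theorem cent_of_fix {t : G} (ht : t ∈ normalizer (E : Set G))
    (e : ∀ a ∈ W, ψ (t * a * t⁻¹) = ψ a) : t ∈ centralizer (W : Set G) := by
  have c : ∀ {a}, a ∈ W → t * a * t⁻¹ ∈ W := fun ha => (mem_normalizer_iff.1 (m.norm_W ht) _).1 ha
  suffices k : ⁅W, E⁆ ≤ centralizer {t} from fun a ha =>
    mem_centralizer_singleton_iff.1 (k (m.comm.ge ha))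
  refine commutator_le.2 fun a ha g hg => ?_
  have h1 := (mem_normalizer_iff.1 ht g).1 hg
  have h2 : ρ g = ρ (t * g * t⁻¹) := by
    refine Matrix.SpecialLinearGroup.ext _ _ fun i j => ?_
    obtain ⟨b, hb, e1⟩ := m.onto (Pi.single j 1)
    have := m.act _ (m.memE h1) _ (c hb)
    rw [conj_mul, conj_inv, conj_mul, e _ (m.conj_mem hb (m.memE hg)), m.act _ (m.memE hg) _ hb,
      e b hb, e1] at this
    have := congrFun this i
    fin_cases i <;> fin_cases j <;> simpa [smul_fin_two] using this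
  have h3 := (m.rep (m.memE hg) (m.memE h1) h2).2
  have h4 := (m.ψ_eq ha (c ha)).1 (e a ha).symm
  rw [mem_centralizer_singleton_iff, eq_comm, ← mul_inv_eq_iff_eq_mul, ← cj_comm_elt,
    ← mul_inv_cancel_left a (t * a * t⁻¹), comm_mul_cent (h4 _ h1).symm, ← commutatorElement_inv,
    ← mul_inv_cancel_left g (t * g * t⁻¹), comm_mul_cent (h3 a ha).symm, commutatorElement_inv]

theorem lin {t : G} (ht : t ∈ normalizer (E : Set G)) (hB : t ∈ normalizer (B : Set G))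
    (h1 : ∀ a ∈ W, ψ (t * a * t⁻¹) 1 = ψ a 1)
    (h0 : ∀ a ∈ W, ψ a 1 = 0 → ψ (t * a * t⁻¹) 0 = ψ a 0) :
    ∃ b ∈ B, b⁻¹ * t ∈ centralizer (W : Set G) := by
  have c : ∀ {t a}, t ∈ normalizer (E : Set G) → a ∈ W → t * a * t⁻¹ ∈ W := fun ht ha =>
    (mem_normalizer_iff.1 (m.norm_W ht) _).1 ha
  obtain ⟨a, ha, e⟩ := m.onto ![0, 1]
  obtain ⟨b, hb, e1⟩ := m.exists_u (ψ (t * a * t⁻¹) 0)
  refine ⟨b, hb, ?_⟩
  have k : ∀ w ∈ W, ψ (b⁻¹ * t * w * (b⁻¹ * t)⁻¹) =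
      ![ψ (t * w * t⁻¹) 0 + ψ (t * a * t⁻¹) 0 * ψ w 1, ψ w 1] := fun w hw => by
    rw [show b⁻¹ * t * w * (b⁻¹ * t)⁻¹ = b⁻¹ * (t * w * t⁻¹) * b⁻¹⁻¹ by group,
      m.act _ (inv_mem (m.memB' hb)) _ (c ht hw), m.ρ_inv (m.memB' hb), e1, inv_smul_eq_iff, u_smul]
    exact vec_ext (by simp [add_assoc, CharTwo.add_self_eq_zero]) (h1 w hw)
  have g1 := mul_mem (inv_mem (m.nE hb)) ht
  have g2 := mul_mem (inv_mem (le_normalizer hb)) hB
  have g3 : ∀ w ∈ W, ψ (b⁻¹ * t * w * (b⁻¹ * t)⁻¹) 1 = ψ w 1 := fun w hw => by rw [k w hw]; rfl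
  have g4 : ∀ w ∈ W, ψ w 1 = 0 → ψ (b⁻¹ * t * w * (b⁻¹ * t)⁻¹) = ψ w := fun w hw e => by
    rw [k w hw, h0 w hw e, e]
    exact vec_ext (by simp) (by simp [e])
  have g5 : ψ (b⁻¹ * t * a * (b⁻¹ * t)⁻¹) = ψ a := by
    rw [k a ha, e]
    simp [CharTwo.add_self_eq_zero]
  generalize b⁻¹ * t = s at g1 g2 g3 g4 g5
  have key : ∀ w ∈ W, ψ w 0 = 0 → ψ (s * w * s⁻¹) = ψ w := fun w hw e0 => by
    obtain ⟨v, hv, e1⟩ := m.surj (l 1)
    have k1 : s⁻¹ * v * s⁻¹⁻¹ ∈ E ⊔ B :=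
      conj_mem_of_normalizes le_rfl (inv_mem (le_normalizer_sup inf_le_left inf_le_right ⟨g1, g2⟩)) hv
    have k2 : ∀ {w}, w ∈ W → (ρ v • ψ (s * w * s⁻¹) = ψ (s * w * s⁻¹) ↔
        ρ (s⁻¹ * v * s⁻¹⁻¹) • ψ w = ψ w) := fun {w} hw => by
      rw [← m.act _ hv _ (c g1 hw), ← m.act _ k1 _ hw]
      refine ⟨fun e => ?_, fun e => ?_⟩
      · simpa [mul_assoc] using m.ψ_conj (inv_mem g1) (m.conj_mem (c g1 hw) hv) (c g1 hw) e
      · simpa [mul_assoc] using m.ψ_conj g1 (m.conj_mem hw k1) hw e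
    have k3 := (k2 ha).1 (by
      rw [g5, e1, e]; exact vec_ext (by simp [smul_fin_two, l00, l01]) (by simp [smul_fin_two, l10, l11]))
    have k4 := (k2 hw).2 (by
      rw [show ψ w = ψ w 1 • ψ a from vec_ext (by simp [e0, e]) (by simp [e]), smul_comm, k3])
    rw [e1] at k4
    exact vec_ext (by simpa [smul_fin_two, l10, l11, e0] using congrFun k4 1) (g3 w hw)
  refine m.cent_of_fix g1 fun w hw => ?_
  obtain ⟨d, hd, e2⟩ := m.onto ![ψ w 0, 0]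
  have k5 := mul_mem (inv_mem hd) hw
  have k6 : ψ (d⁻¹ * w) 0 = 0 := by
    rw [m.add _ (inv_mem hd) _ hw, add_inv m.add hd, e2]; simp
  conv_lhs => rw [← mul_inv_cancel_left d w, ← conj_mul, m.add _ (c g1 hd) _ (c g1 k5),
    g4 d hd (by rw [e2]; rfl), key _ k5 k6, ← m.add _ hd _ k5, mul_inv_cancel_left]

end CL.GC.MB
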